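import Cfsg.Agent.Lib.RU.Core

/-!
# Construction of regular unipotent isometries
-/

set_option autoImplicit false

universe u

namespace Cfsg.Agent.RU

open Module Cfsg.Agent.Forms Cfsg.Agent.Forms.Form Cfsg.Agent.Deg

variable {F : Type u} [Field F] {P : Param F} {V : Type u} [AddCommGroup V] [Module F V]
  {f : Form P V}

theorem isLam_inr {w : V} {l : F} (hl : f.IsLam w l) : ((hyp P).prod f).IsLam ((0, 0), w) l :=
  ⟨by simp [hyp_Q, hl.1], by simp [hyp_B, hl.2]⟩

/-- extension of an isometry to the sum with a hyperbolic plane -/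
def stepU (u : f.Isom) (w : V) (l : F) (hl : f.IsLam w l) : ((hyp P).prod f).Isom :=
  ((hyp P).prod f).eichler ((1, 0), 0) ((0, 0), w) l (by simp [hyp_Q, f.Q_zero]) (by simp [hyp_B])
    (isLam_inr hl) * prodHom _ _ (1, u)

theorem stepU_apply (u : f.Isom) (w : V) (l : F) (hl : f.IsLam w l) (a b : F) (y : V) :
    (stepU u w l hl).1 ((a, b), y) =
      ((a - P.ε * f.B (u.1 y) w - l * b, b), u.1 y + (P.ε * b) • w) := by
  rw [stepU, Isom.mul_apply, prodHom_apply, eichler_apply]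
  ext
  · simp [hyp_B]
    linear_combination (l * b) * P.εε
  · simp [hyp_B]
  · simp [hyp_B]

theorem stepN_apply (u : f.Isom) (w : V) (l : F) (hl : f.IsLam w l) (a b : F) (y : V) :
    Isom.N (stepU u w l hl) ((a, b), y) =
      ((-(P.ε * f.B (u.1 y) w) - l * b, 0), Isom.N u y + (P.ε * b) • w) := by
  rw [Isom.N_apply, stepU_apply, Isom.N_apply]
  ext
  · simp; ring
  · simp
  · simp; abel

theorem stepN_pow (u : f.Isom) (w : V) (l : F) (hl : f.IsLam w l) (i : ℕ) (a : F) (y : V) :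
    (Isom.N (stepU u w l hl) ^ (i + 1)) ((a, 0), y) =
      ((-(P.ε * f.B (u.1 ((Isom.N u ^ i) y)) w), 0), (Isom.N u ^ (i + 1)) y) := by
  induction i with
  | zero => simp [stepN_apply]
  | succ i ih => rw [← N_pow_apply, ih, stepN_apply, N_pow_apply]; simp

theorem stepU_mem [FiniteDimensional F V] {u : f.Isom} (hu : u ∈ f.SIsom) (w : V) (l : F)
    (hl : f.IsLam w l) : stepU u w l hl ∈ ((hyp P).prod f).SIsom := by
  refine Subgroup.mul_mem _ (eichler_mem_SIsom _ _ _ _ _ _ _) ?_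
  rw [SIsom, MonoidHom.mem_ker, detHom_prodHom, map_one, one_mul]
  exact hu

/-- a cyclic vector for a regular unipotent isometry -/
structure Cyc (f : Form P V) (u : f.Isom) (w : V) (j : ℕ) : Prop where
  nondeg : f.Nondeg
  mem : u ∈ f.SIsom
  dim : finrank F V = j + 1
  nil : Isom.N u ^ (j + 1) = 0
  top : f.B ((Isom.N u ^ j) w) w ≠ 0

theorem Cyc.step [FiniteDimensional F V] {u : f.Isom} {w : V} {j : ℕ} (h : Cyc f u w j) (l : F)
    (hl : f.IsLam w l) : Cyc ((hyp P).prod f) (stepU u w l hl) ((0, 1), 0) (j + 2) where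
  nondeg := hyp_nondeg.prod h.nondeg
  mem := stepU_mem h.mem w l hl
  dim := by simp [h.dim]; omega
  nil := by
    ext1
    · ext1 <;> apply LinearMap.ext_ring <;>
        simp only [LinearMap.comp_apply, LinearMap.inl_apply, LinearMap.inr_apply,
          LinearMap.zero_apply] <;>
        rw [← pow_N_apply, stepN_apply, stepN_pow, pow_succ' _ (j + 1), h.nil] <;> simp
    · ext1 y
      simp only [LinearMap.comp_apply, LinearMap.inr_apply, LinearMap.zero_apply]
      change (Isom.N (stepU u w l hl) ^ (j + 2 + 1)) ((0, 0), y) = 0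
      rw [stepN_pow, pow_eq_zero_of_le (by omega) h.nil, pow_eq_zero_of_le (by omega) h.nil]
      simp
  top := by
    rw [← pow_N_apply, stepN_apply, stepN_pow, Isom.N_pow_fix h.nil]
    simpa [hyp_B, P.ε_ne_zero] using h.top

theorem exists_good [FiniteDimensional F V] {u : f.Isom} {w : V} {j : ℕ} (h : Cyc f u w j)
    (hw : f.Q w = 0) (hb : f.B (u.1 w) w ≠ 0) (t : ℕ) :
    ∃ (W : Type u) (_ : AddCommGroup W) (_ : Module F W) (_ : FiniteDimensional F W)
      (g : Form P W) (v : g.Isom) (z x : W), Cyc g v z (j + 2 * (t + 1)) ∧ g.Q z = 0 ∧ g.Q x = 0 ∧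
        g.B (v.1 x) x = 0 ∧ g.B (v.1 (v.1 x)) x ≠ 0 := by
  induction t with
  | zero =>
    refine ⟨_, _, _, inferInstance, _, _, _, ((0, 1), 0), h.step 0 (f.isLam_zero_of_Q hw),
      by simp [hyp_Q, f.Q_zero], by simp [hyp_Q, f.Q_zero], ?_, ?_⟩
    · simp [stepU_apply, hyp_B]
    · simpa [stepU_apply, hyp_B, P.ε_ne_zero] using hb
  | succ t ih =>
    obtain ⟨W, _, _, _, g, v, z, x, h1, h2, h3, h4, h5⟩ := ih
    refine ⟨_, _, _, inferInstance, _, _, _, ((0, 0), x), h1.step 0 (g.isLam_zero_of_Q h2),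
      by simp [hyp_Q, g.Q_zero], by simp [hyp_Q, h3], ?_, ?_⟩
    · simpa [stepU_apply, hyp_B] using h4
    · simpa [stepU_apply, hyp_B] using h5

theorem Cyc.reg {u : f.Isom} {w : V} {k : ℕ} (h : Cyc f u w (k + 3)) : Reg f u w k :=
  ⟨h.dim, h.nil, h.top⟩

theorem exists_sp_good (F : Type u) [Field F] (t : ℕ) :
    ∃ (W : Type u) (_ : AddCommGroup W) (_ : Module F W) (_ : FiniteDimensional F W)
      (g : Form (Param.sp F) W) (v : g.Isom) (z x : W), Cyc g v z (2 * t + 3) ∧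
        g.B (v.1 x) x = 0 ∧ g.B (v.1 (v.1 x)) x ≠ 0 := by
  have h0 : Lam0 (Param.sp F) 1 := ⟨rfl, by simp⟩
  have e : ∀ a b : F, Isom.N (tr (hyp (Param.sp F)) (1, 0) 1 (sp_Q _ _) h0) (a, b) = (-b, 0) := by
    intro a b
    rw [Isom.N_apply, tr_apply]
    ext <;> simp [hyp_B]
  have h : Cyc (hyp (Param.sp F)) (tr _ (1, 0) 1 (sp_Q _ _) h0) (0, 1) 1 :=
    ⟨hyp_nondeg, eichler_mem_SIsom _ _ _ _ _ _ _, by simp, by
      apply LinearMap.ext
      rintro ⟨a, b⟩
      simp [pow_succ, e], by simp [e, hyp_B]⟩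
  obtain ⟨W, _, _, _, g, v, z, x, h1, -, -, h4, h5⟩ := exists_good h (sp_Q _ _)
    (by simp [tr_apply, hyp_B]) t
  exact ⟨W, _, _, inferInstance, g, v, z, x, by convert h1 using 1; omega, h4, h5⟩

theorem exists_su_good [Fintype F] {q : ℕ} (hF : Fintype.card F = q ^ 2) (t : ℕ) :
    ∃ (W : Type u) (_ : AddCommGroup W) (_ : Module F W) (_ : FiniteDimensional F W)
      (g : Form (uP hF) W) (v : g.Isom) (z x : W), Cyc g v z (2 * t + 1 + 3) ∧ g.Q x = 0 ∧
        g.B (v.1 x) x = 0 ∧ g.B (v.1 (v.1 x)) x ≠ 0 := by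
  have h : Cyc (uForm 1 hF) 1 ![1] 0 :=
    ⟨uForm_nondeg 1 hF, Subgroup.one_mem _, by simp, by
      apply LinearMap.ext
      intro x
      simp [Isom.N_apply], by simp [uForm_B']⟩
  obtain ⟨l, hl⟩ := (uForm 1 hF).exists_isLam ![1]
  have hl0 : l ≠ 0 := by
    rintro rfl
    have := hl.2
    simp [uForm_B'] at this
  obtain ⟨W, _, _, _, g, v, z, x, h1, -, h3, h4, h5⟩ := exists_good (h.step l hl)
    (by simp [hyp_Q, Q_zero]) (by simpa [stepU_apply, hyp_B] using hl0) t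
  exact ⟨W, _, _, inferInstance, g, v, z, x, by convert h1 using 1; omega, h3, h4, h5⟩

end Cfsg.Agent.RU
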