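import Cfsg.Agent.Lib.RU.Ein
import Cfsg.Agent.Lib.Forms.SpUni

/-!
# Regular unipotent isometries: structure and the core generation argument
-/

set_option autoImplicit false

namespace Cfsg.Agent.RU

open Module Cfsg.Agent.Forms Cfsg.Agent.Forms.Form Cfsg.Agent.Deg

variable {F : Type*} [Field F] {P : Param F} {V : Type*} [AddCommGroup V] [Module F V]
  {f : Form P V}

theorem linearIndependent_pow (N : V →ₗ[F] V) (k : ℕ) : ∀ w : V, (N ^ k) w = 0 →
    (∀ j, j + 1 = k → (N ^ j) w ≠ 0) → LinearIndependent F fun i : Fin k => (N ^ (i : ℕ)) w := by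
  induction k with
  | zero => intro w _ _; exact linearIndependent_empty_type
  | succ k ih =>
    intro w h1 h2
    have e : (fun i : Fin (k + 1) => (N ^ (i : ℕ)) w) =
        Fin.cons w fun i : Fin k => (N ^ (i : ℕ)) (N w) := by
      ext i
      refine Fin.cases ?_ (fun i => ?_) i
      · simp
      · simp [pow_succ]
    rw [e, linearIndependent_finCons]
    refine ⟨ih (N w) (by rw [← h1, pow_succ]; rfl) fun j hj => ?_, fun h => ?_⟩
    · have := h2 (j + 1) (by omega)
      rwa [pow_succ] at this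
    · apply h2 k rfl
      have : Submodule.span F (Set.range fun i : Fin k => (N ^ (i : ℕ)) (N w)) ≤
          LinearMap.ker (N ^ k) := by
        rw [Submodule.span_le]
        rintro _ ⟨i, rfl⟩
        change (N ^ k) ((N ^ (i : ℕ)) (N w)) = 0
        rw [← Module.End.mul_apply, ← pow_add, add_comm, pow_add, Module.End.mul_apply,
          ← Module.End.mul_apply (N ^ k), ← pow_succ, h1, map_zero]
      exact this h

theorem exists_decomp_cyc [FiniteDimensional F V] (N : V →ₗ[F] V) {k : ℕ}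
    (hk : finrank F V = k + 1) {w : V} (h1 : N ^ (k + 1) = 0) (h2 : (N ^ k) w ≠ 0) (z : V) :
    ∃ (a : F) (z' : V), z = a • w + N z' := by
  have hl := linearIndependent_pow N (k + 1) w (by rw [h1]; rfl) (fun j hj => by
    obtain rfl : j = k := by omega
    exact h2)
  have hs := hl.span_eq_top_of_card_eq_finrank' (by simp [hk])
  have : Submodule.span F (Set.range fun i : Fin (k + 1) => (N ^ (i : ℕ)) w) ≤
      (F ∙ w) ⊔ LinearMap.range N := by
    rw [Submodule.span_le]
    rintro _ ⟨i, rfl⟩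
    refine Fin.cases ?_ (fun i => ?_) i
    · exact Submodule.mem_sup_left (by simp)
    · exact Submodule.mem_sup_right ⟨(N ^ (i : ℕ)) w, by simp [pow_succ']⟩
  obtain ⟨_, h3, _, ⟨z', rfl⟩, rfl⟩ := Submodule.mem_sup.1 (this (hs ▸ Submodule.mem_top (x := z)))
  obtain ⟨a, rfl⟩ := Submodule.mem_span_singleton.1 h3
  exact ⟨a, z', rfl⟩

theorem pow_pow_apply (N : V →ₗ[F] V) (i j : ℕ) (a : V) :
    (N ^ i) ((N ^ j) a) = (N ^ (i + j)) a := by rw [pow_add]; rfl

theorem N_pow_apply (N : V →ₗ[F] V) (j : ℕ) (a : V) : N ((N ^ j) a) = (N ^ (j + 1)) a := by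
  rw [pow_succ']; rfl

theorem pow_N_apply (N : V →ₗ[F] V) (j : ℕ) (a : V) : (N ^ j) (N a) = (N ^ (j + 1)) a := by
  rw [pow_succ]; rfl

theorem B_pow_pow {u : f.Isom} {n : ℕ} (h : Isom.N u ^ n = 0) {i j : ℕ} (hij : n ≤ i + j)
    (a b : V) : f.B ((Isom.N u ^ i) a) ((Isom.N u ^ j) b) = 0 := by
  rw [Isom.B_N_pow, pow_pow_apply, pow_eq_zero_of_le hij h]; simp

theorem u_pow_apply (u : f.Isom) (j : ℕ) (a : V) :
    u.1 ((Isom.N u ^ j) a) = (Isom.N u ^ j) a + (Isom.N u ^ (j + 1)) a := by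
  rw [← N_pow_apply, Isom.N_apply]; abel

theorem B_rec (u : f.Isom) (a b : V) :
    f.B (Isom.N u a) b + f.B a (Isom.N u b) + f.B (Isom.N u a) (Isom.N u b) = 0 := by
  simp only [Isom.N_apply, B_sub_left, B_sub_right, Isom.map_B]; ring

theorem li_three {a b c : V} (ha : f.B a a = 0) (hc : f.B c c = 0) (hac : f.B a c ≠ 0)
    (hb : b ≠ 0) (hba : f.B b a = 0) (hbc : f.B b c = 0) : LinearIndependent F ![a, b, c] := by
  rw [Fintype.linearIndependent_iff]
  intro g hg
  simp only [Fin.sum_univ_three, Matrix.cons_val_zero, Matrix.cons_val_one, Matrix.cons_val] at hg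
  have h1 := congrArg (fun x => f.B x c) hg
  have h2 := congrArg (fun x => f.B x a) hg
  have hca : f.B c a ≠ 0 := fun h => hac (f.B_eq_zero_symm h)
  simp only [B_add_left, B_smul_left, ha, hc, hba, hbc, B_zero_left, mul_zero, add_zero, zero_add,
    mul_eq_zero, hac, hca, or_false] at h1 h2
  rw [h1, h2] at hg
  simp only [zero_smul, zero_add, add_zero, smul_eq_zero, hb, or_false] at hg
  intro i; fin_cases i <;> assumption

theorem exists_witt_three [FiniteDimensional F V] (hf : f.Nondeg) {a b c a' b' c' : V}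
    (ha : f.Q a = 0) (hb : f.Q b = 0) (hc : f.Q c = 0) (ha' : f.Q a' = 0) (hb' : f.Q b' = 0)
    (hc' : f.Q c' = 0) (hac : f.B a c ≠ 0) (hac' : f.B a c = f.B a' c') (hb0 : b ≠ 0)
    (hb0' : b' ≠ 0) (hba : f.B b a = 0) (hbc : f.B b c = 0) (hba' : f.B b' a' = 0)
    (hbc' : f.B b' c' = 0) : ∃ g : f.Isom, g.1 a = a' ∧ g.1 b = b' ∧ g.1 c = c' := by
  obtain ⟨g, hg⟩ := hf.witt_family
    (li_three (f.B_self_of_Q ha) (f.B_self_of_Q hc) hac hb0 hba hbc)
    (li_three (f.B_self_of_Q ha') (f.B_self_of_Q hc') (hac' ▸ hac) hb0' hba' hbc') (by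
      intro i j
      fin_cases i <;> fin_cases j <;>
        simp [f.B_self_of_Q, ha, hb, hc, ha', hb', hc', hba, hbc, hba', hbc', hac',
          f.B_eq_zero_symm hba, f.B_eq_zero_symm hbc, f.B_eq_zero_symm hba',
          f.B_eq_zero_symm hbc', f.symm a c, f.symm a' c'])
    (by intro i; fin_cases i <;> simp [ha, hb, hc, ha', hb', hc'])
  exact ⟨g, hg 0, hg 1, hg 2⟩

theorem core [Fintype F] {K : Subgroup f.Isom} {u v : f.Isom} (hu : u ∈ K) (hv : v ∈ K)
    {e x1 y : V} {s c : F} (hue : u.1 e = e) (hux : u.1 x1 = x1 + e) (hx : f.Q x1 = 0)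
    (hxe : f.B x1 e = 0) (hv1 : v.1 (s • x1) = e) (hv2 : v.1 e = y) (hye : f.B y e = 0)
    (hxy : f.B x1 y ≠ 0) (hs : s ≠ 0) (hc : c ≠ 0) (hT : InT K e c)
    (hspan : ∀ S : Submodule F V, y ∈ S → (∀ z ∈ S, Isom.N u z ∈ S) → ∀ z, f.B z e = 0 → z ∈ S)
    (hR : ∀ R : Subring F, (∀ i, c * f.B ((Isom.N u ^ i) y) y ∈ R) → R = ⊤) (z : V)
    (hz : f.B z e = 0) : InE K e z := by
  have he := hT.Q
  have hl := hT.lam
  have hTy : InT K y c := hv2 ▸ hT.conj hv
  have hTx : InT K (s • x1) c := InT.of_conj hv (hv1 ▸ hT)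
  have hN : ∀ w, InE K e w → InE K e (Isom.N u w) := fun w h => (h.conj_fix hu hue).sub h
  have hY : ∀ w, InE K e w → InE K e ((P.ε * c * f.B w y) • y) := by
    intro w h
    have := h.sub (h.conj_fix (hTy.mem hTy.Q hl) (by rw [tr_apply, f.B_eq_zero_symm hye]; simp))
    rwa [tr_apply, sub_sub_cancel] at this
  have h1 : InE K e ((P.σ s * (-(P.ε * c) * s)) • x1) := by
    have h2 := (hTx.conj hu).mem (hTx.conj hu).Q hl
    have hq1 : f.Q (s • e) = 0 := by rw [f.Q_smul, he, mul_zero]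
    have hb1 : f.B (s • x1) (s • e) = 0 := by rw [B_smul_left, B_smul_right, hxe]; simp
    have h3 : tr f (u.1 (s • x1)) c (hTx.conj hu).Q hl = tr f (s • x1 + s • e) c
        (by rw [f.Q_add_of_orth hb1, hTx.Q, hq1, add_zero]) hl := by
      congr 1; rw [map_smul, hux, smul_add]
    rw [h3, tr_add hTx.Q hq1 hb1 hl, mul_assoc, K.mul_mem_cancel_left (hTx.mem _ _), tr, TT,
      eichler_mul] at h2
    have := InE.of_smul hs ⟨_, _, _, _, h2⟩
    rwa [zero_add, smul_smul, smul_smul, mul_assoc] at this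
  let A : AddSubgroup F :=
    { carrier := {x | InE K e (x • y)}
      zero_mem' := by rw [Set.mem_setOf_eq, zero_smul]; exact InE.zero he
      add_mem' := fun {x y} hx hy => by simpa only [Set.mem_setOf_eq, add_smul] using InE.add hx hy
      neg_mem' := fun {x} hx => by simpa only [Set.mem_setOf_eq, neg_smul] using InE.neg hx }
  have hε : ∀ x ∈ A, P.ε * x ∈ A := by
    intro x hx
    rcases P.ε_eq with h | h <;> rw [h]
    · rwa [one_mul]
    · rw [neg_one_mul]; exact A.neg_mem hx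
  have hNi : ∀ (i : ℕ) w, InE K e w → InE K e ((Isom.N u ^ i) w) := by
    intro i w h
    induction i with
    | zero => exact h
    | succ i ih => rw [← N_pow_apply]; exact hN _ ih
  let R : Subring F :=
    { carrier := {x | ∀ s ∈ A, x * s ∈ A}
      mul_mem' := fun {x y} hx hy s hs => by rw [mul_assoc]; exact hx _ (hy s hs)
      one_mem' := fun s hs => by rwa [one_mul]
      add_mem' := fun {x y} hx hy s hs => by rw [add_mul]; exact A.add_mem (hx s hs) (hy s hs)
      zero_mem' := fun s _ => by rw [zero_mul]; exact A.zero_mem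
      neg_mem' := fun {x} hx s hs => by rw [neg_mul]; exact A.neg_mem (hx s hs) }
  have hRt : R = ⊤ := hR R fun i t ht => by
    have h2 : P.ε * c * f.B ((Isom.N u ^ i) (t • y)) y ∈ A := hY _ (hNi i _ ht)
    have := hε _ h2
    convert this using 1
    rw [map_smul, B_smul_left]
    linear_combination (-(c * t * f.B ((Isom.N u ^ i) y) y)) * P.εε
  have hA : ∀ t, t ∈ A := by
    intro t
    have h2 : P.ε * c * f.B ((P.σ s * (-(P.ε * c) * s)) • x1) y ∈ A := hY _ h1
    have h3 : P.ε * c * f.B ((P.σ s * (-(P.ε * c) * s)) • x1) y ≠ 0 := by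
      rw [B_smul_left]
      have := P.ε_ne_zero
      have := P.σ_ne_zero hs
      simp [*]
    have : t / (P.ε * c * f.B ((P.σ s * (-(P.ε * c) * s)) • x1) y) ∈ R := hRt ▸ Subring.mem_top _
    have := this _ h2
    rwa [div_mul_cancel₀ _ h3] at this
  let S : Submodule F V :=
    { carrier := {w | ∀ t : F, InE K e (t • w)}
      zero_mem' := fun t => by rw [smul_zero]; exact InE.zero he
      add_mem' := fun {a b} ha hb t => by rw [smul_add]; exact (ha t).add (hb t)
      smul_mem' := fun a w hw t => by rw [smul_smul]; exact hw _ }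
  have := hspan S hA (fun w hw t => by rw [← map_smul]; exact hN _ (hw t)) z hz 1
  rwa [one_smul] at this

/-- structure of a regular unipotent isometry of a space of dimension `k + 4` -/
structure Reg (f : Form P V) (u : f.Isom) (w : V) (k : ℕ) : Prop where
  dim : finrank F V = k + 4
  nil : Isom.N u ^ (k + 4) = 0
  top : f.B ((Isom.N u ^ (k + 3)) w) w ≠ 0

namespace Reg

variable [FiniteDimensional F V] {u : f.Isom} {w : V} {k : ℕ} (h : Reg f u w k)
include h

omit [FiniteDimensional F V] in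
theorem e_ne : (Isom.N u ^ (k + 3)) w ≠ 0 := fun h0 => h.top (by rw [h0]; simp)

omit [FiniteDimensional F V] in
theorem u_e : u.1 ((Isom.N u ^ (k + 3)) w) = (Isom.N u ^ (k + 3)) w := Isom.N_pow_fix h.nil w

theorem decomp (z : V) : ∃ (a : F) (z' : V), z = a • w + Isom.N u z' :=
  exists_decomp_cyc _ h.dim h.nil h.e_ne z

theorem mem_range {z : V} (hz : f.B z ((Isom.N u ^ (k + 3)) w) = 0) : ∃ z', z = Isom.N u z' := by
  obtain ⟨a, z', rfl⟩ := h.decomp z
  have h1 := B_pow_pow h.nil (i := 1) (j := k + 3) (by omega) z' w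
  rw [pow_one] at h1
  rw [B_add_left, B_smul_left, h1, add_zero, mul_eq_zero] at hz
  rcases hz with rfl | hz
  · exact ⟨z', by simp⟩
  · exact absurd (f.B_eq_zero_symm hz) h.top

theorem decomp_y {y : V} (hy : f.B y ((Isom.N u ^ (k + 3)) w) = 0)
    (hxy : f.B ((Isom.N u ^ (k + 2)) w) y ≠ 0) :
    ∃ (a : F) (y' : V), a ≠ 0 ∧ y = a • (Isom.N u ^ 1) w + (Isom.N u ^ 2) y' := by
  obtain ⟨z, rfl⟩ := h.mem_range hy
  obtain ⟨a, y', rfl⟩ := h.decomp z
  have e : Isom.N u (a • w + Isom.N u y') = a • (Isom.N u ^ 1) w + (Isom.N u ^ 2) y' := by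
    simp [pow_succ]
  refine ⟨a, y', ?_, e⟩
  rintro rfl
  rw [e, zero_smul, zero_add] at hxy
  exact hxy (B_pow_pow h.nil (by omega) _ _)

theorem span {y : V} (hy : f.B y ((Isom.N u ^ (k + 3)) w) = 0)
    (hxy : f.B ((Isom.N u ^ (k + 2)) w) y ≠ 0) (S : Submodule F V) (hS : y ∈ S)
    (hN : ∀ z ∈ S, Isom.N u z ∈ S) (z : V) (hz : f.B z ((Isom.N u ^ (k + 3)) w) = 0) : z ∈ S := by
  obtain ⟨a, y', ha, e⟩ := h.decomp_y hy hxy
  have hNi : ∀ i : ℕ, (Isom.N u ^ i) y ∈ S := by
    intro i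
    induction i with
    | zero => exact hS
    | succ i ih => rw [← N_pow_apply]; exact hN _ ih
  have key : ∀ j i, i + j = k + 3 → ∀ z, (Isom.N u ^ (i + 1)) z ∈ S := by
    intro j
    induction j with
    | zero =>
      intro i hi z
      rw [show i + 1 = k + 4 by omega, h.nil]; exact S.zero_mem
    | succ j ih =>
      intro i hi z
      obtain ⟨b, z', rfl⟩ := h.decomp z
      have h1 := ih (i + 1) (by omega)
      rw [map_add, map_smul, pow_N_apply]
      refine S.add_mem (S.smul_mem _ ?_) (h1 _)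
      have h2 := S.smul_mem a⁻¹ (S.sub_mem (hNi i) (h1 y'))
      rwa [e, map_add, map_smul, pow_pow_apply, pow_pow_apply, add_sub_cancel_right,
        inv_smul_smul₀ ha] at h2
  obtain ⟨z', rfl⟩ := h.mem_range hz
  simpa using key (k + 3) 0 (by omega) z'

theorem rho_ne {y : V} (hy : f.B y ((Isom.N u ^ (k + 3)) w) = 0)
    (hxy : f.B ((Isom.N u ^ (k + 2)) w) y ≠ 0) : f.B ((Isom.N u ^ (k + 1)) y) y ≠ 0 := by
  obtain ⟨a, y', ha, e⟩ := h.decomp_y hy hxy
  obtain ⟨z, hz⟩ := h.mem_range hy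
  have h1 := B_pow_pow h.nil (i := k + 1 + 2) (j := 1) (by omega) y' z
  rw [pow_one, ← hz] at h1
  nth_rewrite 1 [e]
  rw [map_add, map_smul, pow_pow_apply, pow_pow_apply, B_add_left, B_smul_left, h1, add_zero]
  exact mul_ne_zero ha hxy

theorem b_zero {y : V} (hy : f.B y ((Isom.N u ^ (k + 3)) w) = 0) {i j : ℕ} (hij : k + 2 ≤ i + j) :
    f.B ((Isom.N u ^ i) y) ((Isom.N u ^ j) y) = 0 := by
  obtain ⟨z, rfl⟩ := h.mem_range hy
  rw [pow_N_apply, pow_N_apply]
  exact B_pow_pow h.nil (by omega) _ _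

theorem b_top {y : V} (hy : f.B y ((Isom.N u ^ (k + 3)) w) = 0) (j : ℕ) : ∀ i, i + j = k + 1 →
    f.B ((Isom.N u ^ i) y) ((Isom.N u ^ j) y) = (-1) ^ j * f.B ((Isom.N u ^ (k + 1)) y) y := by
  induction j with
  | zero => rintro i rfl; simp
  | succ j ih =>
    intro i hi
    have h1 := B_rec u ((Isom.N u ^ i) y) ((Isom.N u ^ j) y)
    rw [N_pow_apply, N_pow_apply, h.b_zero hy (i := i + 1) (j := j + 1) (by omega),
      ih (i + 1) (by omega)] at h1
    rw [pow_succ (-1 : F)]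
    linear_combination h1

theorem b_sub {y : V} (hy : f.B y ((Isom.N u ^ (k + 3)) w) = 0) (h2 : (2 : F) = 0) (j : ℕ) :
    ∀ i, i + j = k → f.B ((Isom.N u ^ i) y) ((Isom.N u ^ j) y) =
      f.B ((Isom.N u ^ k) y) y + j * f.B ((Isom.N u ^ (k + 1)) y) y := by
  have hn : (-1 : F) = 1 := by linear_combination -h2
  induction j with
  | zero => rintro i rfl; simp
  | succ j ih =>
    intro i hi
    have h1 := B_rec u ((Isom.N u ^ i) y) ((Isom.N u ^ j) y)
    rw [N_pow_apply, N_pow_apply, h.b_top hy (j + 1) (i + 1) (by omega),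
      ih (i + 1) (by omega), hn, one_pow] at h1
    push_cast
    linear_combination h1 - (f.B ((Isom.N u ^ k) y) y + (j + 1) * f.B ((Isom.N u ^ (k + 1)) y) y) * h2

theorem exists_y (hf : f.Nondeg) (hQ : ∀ x, f.B x x = 0 → f.Q x = 0) :
    ∃ y, f.HypPair ((Isom.N u ^ (k + 2)) w) y ∧ f.B y ((Isom.N u ^ (k + 3)) w) = 0 := by
  obtain ⟨y, h1, h2⟩ := hf.exists_hypPair_orth (u := (Isom.N u ^ (k + 2)) w)
    (hQ _ (B_pow_pow h.nil (by omega) _ _)) (H := F ∙ (Isom.N u ^ (k + 3)) w) (by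
      intro hm
      obtain ⟨a, ha⟩ := Submodule.mem_span_singleton.1 hm
      have := congrArg (Isom.N u) ha
      rw [map_smul, N_pow_apply, N_pow_apply, h.nil] at this
      exact h.e_ne (by simpa using this.symm)) (by
      intro x hx
      obtain ⟨a, rfl⟩ := Submodule.mem_span_singleton.1 hx
      rw [B_smul_left, B_pow_pow h.nil (by omega), mul_zero])
  exact ⟨y, h1, f.B_eq_zero_symm (h2 _ (Submodule.mem_span_singleton_self _))⟩

end Reg

end Cfsg.Agent.RU
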