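import Cfsg.Agent.Lib.RU.SLn

/-!
# Subrings of finite fields, separating polynomials
-/

set_option autoImplicit false

namespace Cfsg.Agent.RU

open Polynomial

variable {F : Type*} [Field F] [Fintype F]

theorem exists_sep_poly {p n : ℕ} [Fact p.Prime] [CharP F p] (hn : Fintype.card F = p ^ n)
    (x y : F) (h : ∀ k < n, x ^ p ^ k ≠ y) :
    ∃ f : ℤ[X], aeval x f = 0 ∧ aeval y f ≠ 0 := by
  letI := ZMod.algebra F p
  obtain ⟨f, hf⟩ := Polynomial.map_surjective (algebraMap ℤ (ZMod p))
    (ZMod.ringHom_surjective _) (minpoly (ZMod p) x)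
  have e : ∀ z : F, aeval z f = aeval z (minpoly (ZMod p) x) := by
    intro z; rw [← hf, aeval_map_algebraMap]
  refine ⟨f, by rw [e, minpoly.aeval], fun h0 => ?_⟩
  rw [e] at h0
  obtain ⟨σ, hσ⟩ := minpoly.exists_algEquiv_of_root' (Algebra.IsAlgebraic.isAlgebraic x) h0
  obtain ⟨i, hi⟩ := FiniteField.exists_forall_apply_eq_pow (ZMod p) p F σ
  have hn0 : 0 < n := by
    rcases Nat.eq_zero_or_pos n with h0 | h0
    · have := Fintype.one_lt_card (α := F)
      rw [hn, h0] at this; simp at this
    · exact h0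
  apply h (i % n) (Nat.mod_lt _ hn0)
  rw [← hσ, hi, Nat.card_zmod]
  conv_rhs => rw [← Nat.div_add_mod i n, pow_add, pow_mul x, pow_mul p, ← hn,
    FiniteField.pow_card_pow]

theorem exists_small_of_ne_top {p n : ℕ} [Fact p.Prime] [CharP F p] (hn : Fintype.card F = p ^ n)
    (K : Subring F) (hK : K ≠ ⊤) : ∃ k, 1 ≤ k ∧ 2 * k ≤ n ∧ ∀ x ∈ K, x ^ p ^ k = x := by
  classical
  let L : Subfield F := { K with inv_mem' := fun x hx => inv_mem_subring K hx }
  obtain ⟨k, -, hk⟩ := FiniteField.card L p
  have h1 := Module.card_eq_pow_finrank (K := L) (V := F)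
  have h2 : Module.finrank L F ≠ 1 := by
    intro h
    rw [h, pow_one] at h1
    apply hK
    rw [eq_top_iff]
    intro x _
    have : Function.Surjective (Subtype.val : L → F) :=
      (Fintype.bijective_iff_injective_and_card _).2 ⟨Subtype.val_injective, h1.symm⟩ |>.2
    obtain ⟨y, rfl⟩ := this x
    exact y.2
  have h3 : 0 < Module.finrank L F := Module.finrank_pos
  refine ⟨k, k.2, ?_, fun x hx => ?_⟩
  · rw [hn, hk, ← pow_mul] at h1
    have := Nat.pow_right_injective (Fact.out : p.Prime).two_le h1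
    rw [this]
    nlinarith [show 2 ≤ Module.finrank L F by omega]
  · have := FiniteField.pow_card (⟨x, hx⟩ : L)
    rw [hk] at this
    exact congrArg Subtype.val this

theorem subring_eq_top_of_prime (hp : (Fintype.card F).Prime) (K : Subring F) : K = ⊤ := by
  by_contra hK
  obtain ⟨p, hc, n, hp', hn⟩ := FiniteField.card' F
  have := Fact.mk hp'
  obtain ⟨k, h1, h2, -⟩ := exists_small_of_ne_top hn K hK
  rw [hn] at hp
  have := hp.eq_one_of_pow
  omega

/-- An additive subgroup stable under multiplication by a ring generator. -/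
theorem addSubgroup_eq_top_of_gen (A : AddSubgroup F) {d η : F} (hd : d ≠ 0) (hdA : d ∈ A)
    (hη : ∀ K : Subring F, η ∈ K → K = ⊤) (h : ∀ s ∈ A, η * s ∈ A) (t : F) : t ∈ A := by
  let K : Subring F :=
    { carrier := {x | ∀ s ∈ A, x * s ∈ A}
      mul_mem' := fun {x y} hx hy s hs => by rw [mul_assoc]; exact hx _ (hy s hs)
      one_mem' := fun s hs => by rwa [one_mul]
      add_mem' := fun {x y} hx hy s hs => by rw [add_mul]; exact A.add_mem (hx s hs) (hy s hs)
      zero_mem' := fun s _ => by rw [zero_mul]; exact A.zero_mem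
      neg_mem' := fun {x} hx s hs => by rw [neg_mul]; exact A.neg_mem (hx s hs) }
  have : t / d ∈ K := hη K h ▸ Subring.mem_top _
  have := this d hdA
  rwa [div_mul_cancel₀ _ hd] at this

end Cfsg.Agent.RU
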