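import Cfsg.Agent.Lib.MI.U1
import Cfsg.Agent.Lib.Forms.Wall
import Cfsg.Agent.Lib.RU.Field

/-!
# Eichler transformations and transvections inside a subgroup
-/

set_option autoImplicit false

namespace Cfsg.Agent.RU

open Module Cfsg.Agent.Forms Cfsg.Agent.Forms.Form Cfsg.Agent.Deg

variable {F : Type*} [Field F] {P : Param F} {V : Type*} [AddCommGroup V] [Module F V]
  {f : Form P V}

/-- some Eichler transformation with the given vectors lies in `N` -/
def InE (N : Subgroup f.Isom) (e v : V) : Prop := ∃ l hu hv hl, f.eichler e v l hu hv hl ∈ N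

/-- the transvection lies in `N` -/
def InT (N : Subgroup f.Isom) (d : V) (l : F) : Prop := ∃ hd hl, tr f d l hd hl ∈ N

variable {N : Subgroup f.Isom} {e v v' d : V} {l l' : F}

theorem isLam_add_smul (he : f.Q e = 0) (hv : f.B v e = 0) (hl : f.IsLam v l) (c : F) :
    f.IsLam (v + c • e) l :=
  by simpa [B_smul_right, hv] using hl.add ((f.isLam_zero_of_Q he).smul c)

theorem lam0_sub_conj (c : F) : Lam0 P (P.σ c - P.ε * c) := by
  constructor
  · have := P.τ_σ (P.ε * c)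
    rw [map_mul P.σ, P.σε, ← mul_assoc, P.εε, one_mul] at this
    rw [map_sub, this, sub_self]
  · rw [map_sub, map_mul, P.σσ, P.σε]
    linear_combination (-P.σ c) * P.εε

theorem isLam_add_lam0 (hl : f.IsLam v l) (h : Lam0 P l') : f.IsLam v (l + l') := by
  simpa using hl.add (h.isLam f)

theorem eichler_add_smul (c : F) (he : f.Q e = 0) (hv : f.B v e = 0) (hl : f.IsLam v l) :
    f.eichler e (v + c • e) l he (by simp [hv, f.B_self_of_Q he]) (isLam_add_smul he hv hl c) =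
      f.eichler e v (l + (P.σ c - P.ε * c)) he hv (isLam_add_lam0 hl (lam0_sub_conj c)) := by
  apply Isom.ext; intro w
  simp only [eichler_apply, B_add_right, B_smul_right]
  match_scalars
  · ring
  · ring
  · linear_combination (-(c * f.B w e)) * P.εε

theorem eichler_smul (c : F) (he : f.Q e = 0) (hv : f.B v e = 0) (hl : f.IsLam v l) :
    f.eichler (c • e) v l (by rw [f.Q_smul, he, mul_zero]) (by rw [B_smul_right, hv, mul_zero]) hl =
      f.eichler e (P.σ c • v) (P.σ c * P.σ (P.σ c) * l) he (by rw [B_smul_left, hv, mul_zero])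
        (hl.smul _) := by
  apply Isom.ext; intro w
  simp only [eichler_apply, B_smul_right, P.σσ]
  module

theorem eichler_congr' {u u' v v' : V} {l l' : F} (hu : f.Q u = 0) (hv : f.B v u = 0)
    (h : f.IsLam v l) (e0 : u = u') (e1 : v = v') (e2 : l = l') :
    f.eichler u v l hu hv h = f.eichler u' v' l' (e0 ▸ hu) (e0 ▸ e1 ▸ hv) (e1 ▸ e2 ▸ h) := by
  subst e0 e1 e2; rfl

theorem tr_smul (c : F) (hd : f.Q d = 0) (hl : Lam0 P l) (h1 h2) :
    tr f (c • d) l h1 hl = tr f d (c * P.σ c * l) hd h2 := by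
  apply Isom.ext; intro w
  simp only [tr_apply, B_smul_right]
  module

theorem lam0_smul (c : F) (hl : Lam0 P l) : Lam0 P (c * P.σ c * l) :=
  ⟨by rw [P.τ_mul, hl.1, mul_zero], by
    rw [map_mul, map_mul, P.σσ]; linear_combination c * P.σ c * hl.2⟩

theorem lam0_add (hl : Lam0 P l) (hl' : Lam0 P l') : Lam0 P (l + l') :=
  ⟨by rw [map_add, hl.1, hl'.1, add_zero], by rw [map_add]; linear_combination hl.2 + hl'.2⟩

theorem lam0_zero : Lam0 P 0 := ⟨by simp, by simp⟩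

namespace InE

theorem Q (h : InE N e v) : f.Q e = 0 := h.choose_spec.choose

theorem B (h : InE N e v) : f.B v e = 0 := h.choose_spec.choose_spec.choose

theorem zero (he : f.Q e = 0) : InE N e 0 :=
  ⟨0, he, by simp, f.isLam_zero_of_Q f.Q_zero, by
    convert N.one_mem
    apply Isom.ext; intro w; simp [eichler_apply]⟩

theorem add (h : InE N e v) (h' : InE N e v') : InE N e (v + v') := by
  obtain ⟨l, hu, hv, hl, h⟩ := h
  obtain ⟨l', _, hv', hl', h'⟩ := h'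
  have := N.mul_mem h h'
  rw [eichler_mul] at this
  exact ⟨_, _, _, _, this⟩

theorem neg (h : InE N e v) : InE N e (-v) := by
  obtain ⟨l, hu, hv, hl, h⟩ := h
  have := N.inv_mem h
  rw [eichler_inv] at this
  exact ⟨_, _, _, _, this⟩

theorem sub (h : InE N e v) (h' : InE N e v') : InE N e (v - v') := by
  rw [sub_eq_add_neg]; exact h.add h'.neg

theorem add_smul (h : InE N e v) (c : F) : InE N e (v + c • e) := by
  obtain ⟨l, hu, hv, hl, h⟩ := h
  have h1 := isLam_add_lam0 hl (lam0_sub_conj (P := P) c).neg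
  refine ⟨_, hu, by simp [hv, f.B_self_of_Q hu], isLam_add_smul hu hv h1 c, ?_⟩
  rw [eichler_add_smul c hu hv h1, f.eichler_congr _ _ _ rfl (l' := l) (by ring)]
  exact h

theorem of_add_smul {c : F} (h : InE N e (v + c • e)) : InE N e v := by
  simpa using h.add_smul (-c)

theorem conj' (h : InE N e v) {g : f.Isom} (hg : g ∈ N) : InE N (g.1 e) (g.1 v) := by
  obtain ⟨l, hu, hv, hl, h⟩ := h
  have := N.mul_mem (N.mul_mem hg h) (N.inv_mem hg)
  rw [eichler_conj] at this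
  exact ⟨_, _, _, _, this⟩

theorem of_smul {c : F} (hc : c ≠ 0) (h : InE N (c • e) v) : InE N e (P.σ c • v) := by
  obtain ⟨l, hu, hv, hl, h⟩ := h
  have he : f.Q e = 0 := by simpa [f.Q_smul, hc] using hu
  have hv' : f.B v e = 0 := by simpa [hc] using hv
  rw [eichler_smul c he hv' hl] at h
  exact ⟨_, _, _, _, h⟩

theorem conj (h : InE N e v) {g : f.Isom} (hg : g ∈ N) {c : F} (hc : c ≠ 0) (he : g.1 e = c • e) :
    InE N e (P.σ c • g.1 v) := of_smul hc (he ▸ h.conj' hg)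

theorem conj_fix (h : InE N e v) {g : f.Isom} (hg : g ∈ N) (he : g.1 e = e) :
    InE N e (g.1 v) := by
  have := h.conj' hg
  rwa [he] at this

theorem comm (h : InE N e v) (h' : InE N e v') : InT N e (f.B v' v - f.B v v') := by
  obtain ⟨l, hu, hv, hl, h⟩ := h
  obtain ⟨l', _, hv', hl', h'⟩ := h'
  have h0 : Lam0 P (f.B v' v - f.B v v') := by
    have h1 := hl.add hl'
    have h2 := hl'.add hl
    rw [add_comm v' v] at h2
    simpa [add_comm l' l] using lam0_sub h2 h1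
  refine ⟨hu, h0, ?_⟩
  have := N.mul_mem (N.mul_mem h h') (N.inv_mem (N.mul_mem h' h))
  convert this using 1
  rw [eq_mul_inv_iff_mul_eq, tr, eichler_mul, eichler_mul, eichler_mul]
  exact f.eichler_congr _ _ _ (by abel) (by simp; ring)

end InE

namespace InT

theorem Q (h : InT N d l) : f.Q d = 0 := h.choose

theorem lam (h : InT N d l) : Lam0 P l := h.choose_spec.choose

theorem mem (h : InT N d l) (hd hl) : tr f d l hd hl ∈ N := h.choose_spec.choose_spec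

theorem zero (hd : f.Q d = 0) : InT N d 0 :=
  ⟨hd, lam0_zero, by
    convert N.one_mem
    apply Isom.ext; intro w; simp [tr_apply]⟩

theorem add (h : InT N d l) (h' : InT N d l') : InT N d (l + l') := by
  obtain ⟨hd, hl, h⟩ := h
  obtain ⟨_, hl', h'⟩ := h'
  refine ⟨hd, lam0_add hl hl', ?_⟩
  convert N.mul_mem h (h') using 1
  rw [tr, tr, tr, eichler_mul]
  exact f.eichler_congr _ _ _ (by simp) (by simp)

theorem neg (h : InT N d l) : InT N d (-l) := by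
  obtain ⟨hd, hl, h⟩ := h
  refine ⟨hd, hl.neg, ?_⟩
  convert N.inv_mem h using 1
  rw [tr, tr, eichler_inv]
  exact f.eichler_congr _ _ _ (by simp) (by linear_combination -hl.2)

theorem sub (h : InT N d l) (h' : InT N d l') : InT N d (l - l') := by
  rw [sub_eq_add_neg]; exact h.add h'.neg

theorem conj (h : InT N d l) {g : f.Isom} (hg : g ∈ N) : InT N (g.1 d) l := by
  obtain ⟨hd, hl, h⟩ := h
  have := N.mul_mem (N.mul_mem hg h) (N.inv_mem hg)
  rw [tr_conj] at this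
  exact ⟨_, _, this⟩

theorem of_conj {g : f.Isom} (hg : g ∈ N) (h : InT N (g.1 d) l) : InT N d l := by
  simpa using h.conj (N.inv_mem hg)

theorem of_smul {c : F} (hc : c ≠ 0) (h : InT N (c • d) l) : InT N d (c * P.σ c * l) := by
  obtain ⟨hd, hl, h⟩ := h
  have he : f.Q d = 0 := by simpa [f.Q_smul, hc] using hd
  exact ⟨he, lam0_smul c hl, tr_smul c he hl hd _ ▸ h⟩

theorem smul (c : F) (hl : Lam0 P l) (h : InT N d (c * P.σ c * l)) : InT N (c • d) l := by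
  obtain ⟨hd, hl', h⟩ := h
  exact ⟨by rw [f.Q_smul, hd, mul_zero], hl, (tr_smul c hd hl _ hl').symm ▸ h⟩

end InT

theorem ein_of (hT : ∀ l, Lam0 P l → InT N e l) (h : InE N e v) : Ein N e v := by
  obtain ⟨l, hu, hv, hl, h⟩ := h
  intro l' _ _ h'
  have := N.mul_mem h ((hT _ (lam0_sub h' hl)).mem hu (lam0_sub h' hl))
  rwa [tr, eichler_mul, f.eichler_congr _ _ _ (add_zero v) (l' := l') (by simp)] at this

theorem exists_nonperp (h0 : ∃ l, l ≠ 0 ∧ Lam0 P l) {u e u₀ e₀ : V} (h : f.HypPair u e)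
    (h₀ : f.HypPair u₀ e₀) : ∃ z, f.Q z = 0 ∧ f.B z u ≠ 0 ∧ f.B z u₀ ≠ 0 := by
  by_cases h1 : f.B e u₀ = 0
  swap
  · exact ⟨e, h.Qe, by rw [h.Beu]; exact P.ε_ne_zero, h1⟩
  by_cases h2 : f.B e₀ u = 0
  swap
  · exact ⟨e₀, h₀.Qe, h2, by rw [h₀.Beu]; exact P.ε_ne_zero⟩
  obtain ⟨c, hc, hc'⟩ : ∃ c : F, c ≠ 0 ∧ P.τ (c * f.B e₀ e) = 0 := by
    by_cases h3 : f.B e₀ e = 0
    · exact ⟨1, one_ne_zero, by simp [h3]⟩
    · obtain ⟨l, hl0, hl⟩ := h0
      exact ⟨l / f.B e₀ e, div_ne_zero hl0 h3, by rw [div_mul_cancel₀ _ h3, hl.1]⟩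
  refine ⟨c • e₀ + e, ?_, ?_, ?_⟩
  · rw [f.Q_add, f.Q_smul, h.Qe, h₀.Qe, B_smul_left, hc']; simp
  · simpa [h2, h.Beu] using P.ε_ne_zero
  · simpa [h1, h₀.Beu, hc] using P.ε_ne_zero

theorem hasTr_of_ein (hf : f.Nondeg) (h0 : ∃ l, l ≠ 0 ∧ Lam0 P l) (he : f.Q e = 0)
    (hT : ∀ l, Lam0 P l → InT N e l) (hE : ∀ v, f.B v e = 0 → InE N e v) {g : f.Isom} (hg : g ∈ N)
    (hge : f.B (g.1 e) e ≠ 0) : HasTr f N := by
  have hp : ∀ w, f.Q w = 0 → f.B w e ≠ 0 → f.HypPair e (P.σ (f.B e w)⁻¹ • w) := fun w hw hzw =>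
    ⟨he, by rw [f.Q_smul, hw, mul_zero], by
      rw [B_smul_right, P.σσ, inv_mul_cancel₀ fun h => hzw (f.B_eq_zero_symm h)]⟩
  have hsm : ∀ (w : V) (c : F), (∀ l, Lam0 P l → InT N w l) → ∀ l, Lam0 P l → InT N (c • w) l :=
    fun w c h l hl => InT.smul c hl (h _ (lam0_smul c hl))
  have h1 : ∀ w, f.Q w = 0 → f.B w e ≠ 0 → ∀ l, Lam0 P l → InT N w l := by
    intro w hw hwe
    obtain ⟨v, l, hu, hv, hl, e1, -⟩ := exists_eichler_map
      (hp (g.1 e) (by rw [Isom.map_Q, he]) hge) (hp w hw hwe)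
    have hc : P.σ (f.B e w)⁻¹ ≠ 0 :=
      P.σ_ne_zero (inv_ne_zero fun h => hwe (f.B_eq_zero_symm h))
    rw [← inv_smul_smul₀ hc w, ← e1]
    refine hsm _ _ fun l' hl' => InT.conj ?_ (ein_of hT (hE v hv) _ _ _ _)
    exact hsm _ _ (fun l hl => (hT l hl).conj hg) l' hl'
  intro d l hd hl
  by_cases hd0 : d = 0
  · subst hd0
    convert N.one_mem
    apply Isom.ext; intro w; simp [tr_apply]
  by_cases hde : f.B d e = 0
  swap
  · exact (h1 d hd hde l hl).mem _ _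
  have he0 : e ≠ 0 := by rintro rfl; simp at hge
  obtain ⟨d', hd'⟩ := hf.exists_hypPair hd hd0
  obtain ⟨e', he'⟩ := hf.exists_hypPair he he0
  obtain ⟨z, hz, hz1, hz2⟩ := exists_nonperp h0 hd' he'
  obtain ⟨m, hm0, hm⟩ := h0
  have ht := (h1 z hz hz2 m hm).mem hz hm
  refine (InT.of_conj ht (h1 _ (by rw [Isom.map_Q, hd]) ?_ l hl)).mem _ _
  rw [tr_apply, B_sub_left, B_smul_left, hde, zero_sub, neg_ne_zero]
  exact mul_ne_zero (mul_ne_zero (mul_ne_zero P.ε_ne_zero hm0)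
    fun h => hz1 (f.B_eq_zero_symm h)) hz2

/-- transport of nilpotency data to matrices -/
theorem reg_of_equiv {ι : Type*} [Fintype ι] [DecidableEq ι] (φ : V ≃ₗ[F] (ι → F)) (u : f.Isom)
    (A : Matrix ι ι F) (h : ∀ x, A.mulVec (φ x) = φ (u.1 x)) {k : ℕ}
    (h1 : IsNilpotent (Isom.N u)) (h2 : Isom.N u ^ k ≠ 0) :
    IsNilpotent (A - 1) ∧ (A - 1) ^ k ≠ 0 := by
  have key : ∀ (m : ℕ) x, ((A - 1) ^ m).mulVec (φ x) = φ ((Isom.N u ^ m) x) := by
    intro m
    induction m with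
    | zero => intro x; simp
    | succ m ih =>
      intro x
      rw [pow_succ, ← Matrix.mulVec_mulVec, Matrix.sub_mulVec, Matrix.one_mulVec, h, ← map_sub, ih,
        pow_succ]
      rfl
  constructor
  · obtain ⟨m, hm⟩ := h1
    refine ⟨m, Matrix.toLin'.injective (LinearMap.ext fun x => ?_)⟩
    obtain ⟨x, rfl⟩ := φ.surjective x
    rw [Matrix.toLin'_apply, key, hm]; simp
  · intro h0
    apply h2
    ext x
    apply φ.injective
    rw [← key, h0]; simp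

theorem su_transport [Fintype F] {q : ℕ} {hF : Fintype.card F = q ^ 2} [FiniteDimensional F V]
    {f : Form (uP hF) V} (hf : f.Nondeg) {n : ℕ} (hn : finrank F V = n) {u g h : f.Isom}
    (hu : u ∈ f.SIsom) (hg : g ∈ f.SIsom) (hh : h ∈ f.SIsom) (h1 : IsNilpotent (Isom.N u))
    (h2 : Isom.N u ^ (n - 1) ≠ 0) :
    ∃ u' g' h' : ↥(Cfsg.SU n F q), (IsNilpotent (((u' : Matrix.SpecialLinearGroup (Fin n) F) :
      Matrix (Fin n) (Fin n) F) - 1) ∧ (((u' : Matrix.SpecialLinearGroup (Fin n) F) :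
      Matrix (Fin n) (Fin n) F) - 1) ^ (n - 1) ≠ 0) ∧ (g = h → g' = h') ∧
      ((∀ K : Subgroup f.Isom, u ∈ K → g * u * g⁻¹ ∈ K → h * u * h⁻¹ ∈ K → f.SIsom ≤ K) →
      Subgroup.closure ({u', g' * u' * g'⁻¹, h' * u' * h'⁻¹} : Set ↥(Cfsg.SU n F q)) = ⊤) := by
  obtain ⟨i⟩ := hf.unit_iso (uForm_nondeg n hF) (by simpa using hn)
  let Φ : Cfsg.SU n F q ≃* f.SIsom := (suEquiv n hF).trans i.sisomEquiv.symm
  refine ⟨Φ.symm ⟨u, hu⟩, Φ.symm ⟨g, hg⟩, Φ.symm ⟨h, hh⟩, reg_of_equiv i.e u _ (fun x => ?_) h1 h2,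
    by rintro rfl; rfl, fun hK => ?_⟩
  · rw [← suEquiv_apply n hF]
    simp only [Φ, MulEquiv.symm_trans_apply, MulEquiv.symm_symm, MulEquiv.apply_symm_apply,
      Iso.sisomEquiv_coe, Iso.isomEquiv_apply']
  · set H := Subgroup.closure ({Φ.symm ⟨u, hu⟩, Φ.symm ⟨g, hg⟩ * Φ.symm ⟨u, hu⟩ * (Φ.symm ⟨g, hg⟩)⁻¹,
      Φ.symm ⟨h, hh⟩ * Φ.symm ⟨u, hu⟩ * (Φ.symm ⟨h, hh⟩)⁻¹} : Set ↥(Cfsg.SU n F q))
    have := hK (H.map (f.SIsom.subtype.comp Φ.toMonoidHom))
      ⟨_, Subgroup.subset_closure (Or.inl rfl), by simp⟩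
      ⟨_, Subgroup.subset_closure (Or.inr (Or.inl rfl)), by simp⟩
      ⟨_, Subgroup.subset_closure (Or.inr (Or.inr rfl)), by simp⟩
    rw [eq_top_iff]
    intro x _
    obtain ⟨y, hy, e⟩ := this (Φ x).2
    rwa [← Φ.injective (Subtype.ext e)]

theorem sp_transport [FiniteDimensional F V]
    {f : Form (Param.sp F) V} (hf : f.Nondeg) {n : ℕ} (hn : finrank F V = 2 * n) {u g h : f.Isom}
    (h1 : IsNilpotent (Isom.N u)) (h2 : Isom.N u ^ (2 * n - 1) ≠ 0)
    (hK : ∀ K : Subgroup f.Isom, u ∈ K → g * u * g⁻¹ ∈ K → h * u * h⁻¹ ∈ K → K = ⊤) :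
    ∃ u g h : Matrix.symplecticGroup (Fin n) F,
      IsNilpotent ((u : Matrix (Fin n ⊕ Fin n) (Fin n ⊕ Fin n) F) - 1) ∧
      ((u : Matrix (Fin n ⊕ Fin n) (Fin n ⊕ Fin n) F) - 1) ^ (2 * n - 1) ≠ 0 ∧
      Subgroup.closure ({u, g * u * g⁻¹, h * u * h⁻¹} :
        Set (Matrix.symplecticGroup (Fin n) F)) = ⊤ := by
  obtain ⟨i⟩ := hf.sp_iso (spForm_nondeg n) (by simp [hn, two_mul])
  let Φ : Matrix.symplecticGroup (Fin n) F ≃* f.Isom := (spEquiv n F).trans i.isomEquiv.symm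
  have hr := reg_of_equiv i.e u (Φ.symm u).1 (fun x => by
    rw [← spEquiv_apply n]
    simp only [Φ, MulEquiv.symm_trans_apply, MulEquiv.symm_symm, MulEquiv.apply_symm_apply,
      Iso.isomEquiv_apply']) h1 h2
  refine ⟨Φ.symm u, Φ.symm g, Φ.symm h, hr.1, hr.2, ?_⟩
  set H := Subgroup.closure ({Φ.symm u, Φ.symm g * Φ.symm u * (Φ.symm g)⁻¹,
      Φ.symm h * Φ.symm u * (Φ.symm h)⁻¹} : Set (Matrix.symplecticGroup (Fin n) F))
  have := hK (H.map Φ.toMonoidHom)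
      ⟨_, Subgroup.subset_closure (Or.inl rfl), by simp⟩
      ⟨_, Subgroup.subset_closure (Or.inr (Or.inl rfl)), by simp⟩
      ⟨_, Subgroup.subset_closure (Or.inr (Or.inr rfl)), by simp⟩
  rw [eq_top_iff]
  intro x _
  obtain ⟨y, hy, e⟩ : Φ x ∈ H.map Φ.toMonoidHom := this ▸ Subgroup.mem_top _
  rwa [← Φ.injective e]

end Cfsg.Agent.RU
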