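import Cfsg.Agent.Lib.SLn.Monomial

/-!
# Two conjugate regular unipotent generators of `SL_n`, `n ≥ 4`: the general criterion
-/

set_option autoImplicit false

namespace Cfsg.Agent.RU

open Matrix Cfsg.Agent.SLn

variable {ι F : Type*} [Fintype ι] [DecidableEq ι] [Field F]

section triple

variable (H : Subgroup (SpecialLinearGroup ι F)) (a0 a1 a2 f0 f1 f2 : ι → F)

/-- a six-parameter family of matrices -/
def pMat (x0 x1 x2 y1 y2 z : F) : Matrix ι ι F :=
  1 + x0 • vecMulVec a0 f0 + x1 • vecMulVec a1 f1 + x2 • vecMulVec a2 f2 +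
    y1 • vecMulVec a1 f0 + y2 • vecMulVec a2 f1 + z • vecMulVec a2 f0

/-- `H` contains the matrix `pMat ..` -/
def HasP (x0 x1 x2 y1 y2 z : F) : Prop :=
  ∃ g ∈ H, (g : Matrix ι ι F) = pMat a0 a1 a2 f0 f1 f2 x0 x1 x2 y1 y2 z

variable {H a0 a1 a2 f0 f1 f2} {c e : F}

theorem pMat_mul (h00 : f0 ⬝ᵥ a0 = 0) (h01 : f0 ⬝ᵥ a1 = 0) (h02 : f0 ⬝ᵥ a2 = 0)
    (h11 : f1 ⬝ᵥ a1 = 0) (h12 : f1 ⬝ᵥ a2 = 0) (h22 : f2 ⬝ᵥ a2 = 0)
    (h10 : f1 ⬝ᵥ a0 = c) (h21 : f2 ⬝ᵥ a1 = c) (h20 : f2 ⬝ᵥ a0 = e)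
    (x0 x1 x2 y1 y2 z x0' x1' x2' y1' y2' z' : F) :
    pMat a0 a1 a2 f0 f1 f2 x0 x1 x2 y1 y2 z * pMat a0 a1 a2 f0 f1 f2 x0' x1' x2' y1' y2' z' =
      pMat a0 a1 a2 f0 f1 f2 (x0 + x0') (x1 + x1') (x2 + x2') (y1 + y1' + x1 * c * x0')
        (y2 + y2' + x2 * c * x1') (z + z' + (y2 * c * x0' + x2 * c * y1' + x2 * e * x0')) := by
  simp only [pMat, mul_add, add_mul, smul_mul_assoc, mul_smul_comm, one_mul, mul_one,
    vecMulVec_mul_vecMulVec, vecMulVec_smul, h00, h01, h02, h11, h12, h22, h10, h21, h20,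
    zero_smul, smul_zero, add_zero, vecMulVec_zero]
  module

theorem tv_of_triple (h00 : f0 ⬝ᵥ a0 = 0) (h01 : f0 ⬝ᵥ a1 = 0) (h02 : f0 ⬝ᵥ a2 = 0)
    (h11 : f1 ⬝ᵥ a1 = 0) (h12 : f1 ⬝ᵥ a2 = 0) (h22 : f2 ⬝ᵥ a2 = 0)
    (h10 : f1 ⬝ᵥ a0 = c) (h21 : f2 ⬝ᵥ a1 = c) (h20 : f2 ⬝ᵥ a0 = e)
    (hA : tv a0 f0 h00 * (tv a1 f1 h11)⁻¹ ∈ H) (hB : tv a1 f1 h11 * (tv a2 f2 h22)⁻¹ ∈ H) :
    HasTv H ((c ^ 2) • a2) f0 := by
  have hmul : ∀ {x0 x1 x2 y1 y2 z x0' x1' x2' y1' y2' z' : F},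
      HasP H a0 a1 a2 f0 f1 f2 x0 x1 x2 y1 y2 z → HasP H a0 a1 a2 f0 f1 f2 x0' x1' x2' y1' y2' z' →
      HasP H a0 a1 a2 f0 f1 f2 (x0 + x0') (x1 + x1') (x2 + x2') (y1 + y1' + x1 * c * x0')
        (y2 + y2' + x2 * c * x1') (z + z' + (y2 * c * x0' + x2 * c * y1' + x2 * e * x0')) := by
    rintro x0 x1 x2 y1 y2 z x0' x1' x2' y1' y2' z' ⟨g, hg, e1⟩ ⟨g', hg', e2⟩
    exact ⟨g * g', H.mul_mem hg hg', by
      rw [Matrix.SpecialLinearGroup.coe_mul, e1, e2,
        pMat_mul h00 h01 h02 h11 h12 h22 h10 h21 h20]⟩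
  have g0 : ∀ x, (1 : Matrix ι ι F) + vecMulVec (x • a0) f0 = pMat a0 a1 a2 f0 f1 f2 x 0 0 0 0 0 := by
    intro x; simp [pMat, smul_vecMulVec]
  have g1 : ∀ x, (1 : Matrix ι ι F) + vecMulVec (x • a1) f1 = pMat a0 a1 a2 f0 f1 f2 0 x 0 0 0 0 := by
    intro x; simp [pMat, smul_vecMulVec]
  have g2 : ∀ x, (1 : Matrix ι ι F) + vecMulVec (x • a2) f2 = pMat a0 a1 a2 f0 f1 f2 0 0 x 0 0 0 := by
    intro x; simp [pMat, smul_vecMulVec]
  have p0 := g0 1
  have p1 := g1 1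
  have p2 := g2 1
  have q0 := g0 (-1)
  have q1 := g1 (-1)
  have q2 := g2 (-1)
  rw [one_smul] at p0 p1 p2
  rw [neg_one_smul] at q0 q1 q2
  have A : HasP H a0 a1 a2 f0 f1 f2 1 (-1) 0 0 0 0 := ⟨_, hA, by
    rw [Matrix.SpecialLinearGroup.coe_mul, (inv_coe_of_eq (coe_tv _ _ _)).2, coe_tv, p0, q1,
      pMat_mul h00 h01 h02 h11 h12 h22 h10 h21 h20]
    simp⟩
  have A' : HasP H a0 a1 a2 f0 f1 f2 (-1) 1 0 (-c) 0 0 := ⟨_, H.inv_mem hA, by
    rw [_root_.mul_inv_rev, inv_inv, Matrix.SpecialLinearGroup.coe_mul,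
      (inv_coe_of_eq (coe_tv _ _ _)).2, coe_tv, p1, q0,
      pMat_mul h00 h01 h02 h11 h12 h22 h10 h21 h20]
    simp⟩
  have B : HasP H a0 a1 a2 f0 f1 f2 0 1 (-1) 0 0 0 := ⟨_, hB, by
    rw [Matrix.SpecialLinearGroup.coe_mul, (inv_coe_of_eq (coe_tv _ _ _)).2, coe_tv, p1, q2,
      pMat_mul h00 h01 h02 h11 h12 h22 h10 h21 h20]
    simp⟩
  have B' : HasP H a0 a1 a2 f0 f1 f2 0 (-1) 1 0 (-c) 0 := ⟨_, H.inv_mem hB, by
    rw [_root_.mul_inv_rev, inv_inv, Matrix.SpecialLinearGroup.coe_mul,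
      (inv_coe_of_eq (coe_tv _ _ _)).2, coe_tv, p2, q1,
      pMat_mul h00 h01 h02 h11 h12 h22 h10 h21 h20]
    simp⟩
  have D := hmul (hmul A B) (hmul A' B')
  have D' := hmul (hmul B A) (hmul B' A')
  obtain ⟨g, hg, e1⟩ := hmul (hmul A D) (hmul A' D')
  refine ⟨g, hg, ?_⟩
  rw [e1, pMat, smul_vecMulVec]
  module

end triple

theorem one_mem_of_mul_closed [Finite F] (A : AddSubgroup F) (hmul : ∀ x ∈ A, ∀ y ∈ A, x * y ∈ A)
    {k : F} (hk : k ∈ A) (hk0 : k ≠ 0) : (1 : F) ∈ A := by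
  classical
  have := Fintype.ofFinite F
  have h1 : ∀ n : ℕ, k ^ (n + 1) ∈ A := by
    intro n
    induction n with
    | zero => simpa using hk
    | succ n ih => rw [pow_succ]; exact hmul _ ih _ hk
  have h2 := FiniteField.pow_card_sub_one_eq_one k hk0
  have h3 : 1 < Fintype.card F := Fintype.one_lt_card
  have := h1 (Fintype.card F - 2)
  rwa [show Fintype.card F - 2 + 1 = Fintype.card F - 1 by omega, h2] at this

theorem inv_mem_subring [Finite F] (K : Subring F) {k : F} (hk : k ∈ K) : k⁻¹ ∈ K := by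
  classical
  have := Fintype.ofFinite F
  by_cases hk0 : k = 0
  · rw [hk0, _root_.inv_zero]; exact K.zero_mem
  have h2 := FiniteField.pow_card_sub_one_eq_one k hk0
  have h3 : 1 < Fintype.card F := Fintype.one_lt_card
  have : k⁻¹ = k ^ (Fintype.card F - 2) := by
    apply inv_eq_of_mul_eq_one_right
    rw [← pow_succ', show Fintype.card F - 2 + 1 = Fintype.card F - 1 by omega, h2]
  rw [this]; exact K.pow_mem hk _

theorem eq_top_of_pair [Finite F] (u : SpecialLinearGroup ι F) (a f : ℕ → ι → F)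
    (ha : ∀ k, a (k + 1) = (u : Matrix ι ι F) *ᵥ a k)
    (hf : ∀ k, f (k + 1) = f k ᵥ* ((u⁻¹ : SpecialLinearGroup ι F) : Matrix ι ι F))
    (m : ℕ) (hm : 2 ≤ m) (h0 : ∀ j ≤ m, f 0 ⬝ᵥ a j = 0) (hc : f 1 ⬝ᵥ a 0 ≠ 0)
    (hd : f 0 ⬝ᵥ a (m + 1) ≠ 0)
    (hK : ∀ K : Subring F, (f 1 ⬝ᵥ a 0) ^ (m + 1) * (f 0 ⬝ᵥ a (m + 1)) ∈ K →
      (f 2 ⬝ᵥ a 0) / (f 1 ⬝ᵥ a 0) ^ 2 ∈ K → K = ⊤)
    (hspan : ∀ S : Submodule F (ι → F), (∀ k ≤ m + 2, a k ∈ S) → S = ⊤)
    (hcyc : ∀ S : Submodule F (ι → F), f 0 ∈ S → (∀ ψ ∈ S, ψ ᵥ* (u : Matrix ι ι F) ∈ S) → S = ⊤) :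
    Subgroup.closure ({u, tv (a 0) (f 0) (h0 0 (Nat.zero_le _)) * u *
      (tv (a 0) (f 0) (h0 0 (Nat.zero_le _)))⁻¹} : Set (SpecialLinearGroup ι F)) = ⊤ := by
  set H := Subgroup.closure ({u, tv (a 0) (f 0) (h0 0 (Nat.zero_le _)) * u *
      (tv (a 0) (f 0) (h0 0 (Nat.zero_le _)))⁻¹} : Set (SpecialLinearGroup ι F)) with hH
  set c := f 1 ⬝ᵥ a 0 with hcdef
  set d := f 0 ⬝ᵥ a (m + 1) with hddef
  set e := f 2 ⬝ᵥ a 0 with hedef
  have huH : u ∈ H := Subgroup.subset_closure (by simp)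
  have hvH : tv (a 0) (f 0) (h0 0 (Nat.zero_le _)) * u *
      (tv (a 0) (f 0) (h0 0 (Nat.zero_le _)))⁻¹ ∈ H := Subgroup.subset_closure (by simp)
  have dot1 : ∀ i j, f (i + 1) ⬝ᵥ a (j + 1) = f i ⬝ᵥ a j := by
    intro i j
    rw [ha, hf, dotProduct_mulVec, vecMul_vecMul, coe_inv_mul, vecMul_one]
  have dot : ∀ k i j, f (i + k) ⬝ᵥ a (j + k) = f i ⬝ᵥ a j := by
    intro k i j
    induction k with
    | zero => rfl
    | succ k ih => rw [← add_assoc, ← add_assoc, dot1, ih]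
  have z : ∀ i j, i ≤ j → j ≤ i + m → f i ⬝ᵥ a j = 0 := by
    intro i j h1 h2
    have := dot i 0 (j - i)
    rw [zero_add, show j - i + i = j by omega] at this
    rw [this]; exact h0 _ (by omega)
  have zc : ∀ i, f (i + 1) ⬝ᵥ a i = c := by
    intro i
    have := dot i 1 0
    rwa [zero_add, add_comm] at this
  have zz : ∀ k, f k ⬝ᵥ a k = 0 := fun k => z k k le_rfl (by omega)
  have hγ : ∀ k, tv (a (k + 1)) (f (k + 1)) (zz _) = u * tv (a k) (f k) (zz _) * u⁻¹ := by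
    intro k
    apply Subtype.ext
    rw [coe_conj_of_eq u (coe_tv _ _ _), ← ha, ← hf]; rfl
  have hstep : ∀ k, tv (a k) (f k) (zz _) * (tv (a (k + 1)) (f (k + 1)) (zz _))⁻¹ ∈ H := by
    intro k
    induction k with
    | zero =>
      have := H.mul_mem hvH (H.inv_mem huH)
      rw [hγ]
      convert this using 1
      group
    | succ k ih =>
      have := H.mul_mem (H.mul_mem huH ih) (H.inv_mem huH)
      rw [hγ (k + 1)]
      nth_rewrite 1 [hγ k]
      convert this using 1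
      group
  have hk0 : ∀ k, tv (a k) (f k) (zz _) * (tv (a 0) (f 0) (zz _))⁻¹ ∈ H := by
    intro k
    induction k with
    | zero => simp
    | succ k ih =>
      have := H.mul_mem (H.inv_mem (hstep k)) ih
      convert this using 1
      group
  have sh1 : ∀ (w : ι → F) j, HasTv H w (f j) ↔ HasTv H ((u : Matrix ι ι F) *ᵥ w) (f (j + 1)) := by
    intro w j
    constructor
    · intro h; rw [hf]; exact h.conj huH
    · intro h
      have := h.conj_inv huH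
      rwa [hf, mulVec_mulVec, coe_inv_mul, one_mulVec, vecMul_vecMul, coe_inv_mul,
        vecMul_one] at this
  have sh : ∀ (s : F) k i j, HasTv H (s • a i) (f j) ↔ HasTv H (s • a (i + k)) (f (j + k)) := by
    intro s k i j
    induction k with
    | zero => rfl
    | succ k ih => rw [ih, sh1, mulVec_smul, ← ha]; rfl
  have up : ∀ (s : F) i k, i ≤ m → k ≤ m → HasTv H (s • a i) (f 0) →
      HasTv H ((s * (f k ⬝ᵥ a i)) • a k) (f 0) := by
    intro s i k hi hk h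
    have h1 := h.conj (hk0 k)
    rw [_root_.mul_inv_rev, inv_inv, Matrix.SpecialLinearGroup.coe_mul,
      Matrix.SpecialLinearGroup.coe_mul, (inv_coe_of_eq (coe_tv _ _ _)).2,
      (inv_coe_of_eq (coe_tv _ _ _)).2, coe_tv, coe_tv, ← mulVec_mulVec, ← vecMul_vecMul] at h1
    simp only [add_mulVec, one_mulVec, vecMulVec_mulVec, vecMul_add, vecMul_one, vecMul_vecMulVec,
      dotProduct_smul, h0 i hi, h0 k hk, zz 0, dotProduct_neg, smul_zero, neg_zero, zero_smul,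
      add_zero, MulOpposite.op_zero] at h1
    have h2 := h1.sub_left h
    rw [add_sub_cancel_left] at h2
    convert h2 using 1
    ext x; simp [mul_comm]
  have down : ∀ (s s' : F) i, i + 1 ≤ m → HasTv H (s • a (i + 1)) (f 0) →
      HasTv H (s' • a m) (f 0) → HasTv H ((s * s' * d) • a i) (f 0) := by
    intro s s' i hi h h'
    have h1 := h.comm_left ((sh s' 1 m 0).1 h') (by
      rw [dotProduct_smul, z _ _ (by omega) (by omega), smul_zero])
    rw [sh _ 1 i 0]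
    convert h1 using 1
    rw [dotProduct_smul, smul_smul, ← hddef, smul_eq_mul]
    congr 1; ring
  have upc : ∀ (s : F) i k, i + k ≤ m → HasTv H (s • a i) (f 0) →
      HasTv H ((s * c ^ k) • a (i + k)) (f 0) := by
    intro s i k
    induction k with
    | zero => intro _ h; simpa using h
    | succ k ih =>
      intro hk h
      have := up _ _ (i + k + 1) (by omega) (by omega) (ih (by omega) h)
      rwa [zc, mul_assoc, ← pow_succ] at this
  have hc2 : HasTv H ((c ^ 2) • a 2) (f 0) :=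
    tv_of_triple (e := e) (zz 0) (h0 1 (by omega)) (h0 2 hm) (zz 1) (z 1 2 (by omega) (by omega))
      (zz 2) rfl (zc 1) rfl (hstep 0) (hstep 1)
  have hcd : c * d ≠ 0 := mul_ne_zero hc hd
  let A : AddSubgroup F :=
    { carrier := {x | HasTv H ((x / (c * d)) • a m) (f 0)}
      zero_mem' := by simpa using HasTv.zero_left _
      add_mem' := by
        intro x y hx hy
        have := HasTv.add_left hx hy
        rwa [← add_smul, ← add_div] at this
      neg_mem' := by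
        intro x hx
        have := HasTv.neg_left hx
        rwa [← neg_smul, ← neg_div] at this }
  have hA : ∀ x, x ∈ A ↔ HasTv H ((x / (c * d)) • a m) (f 0) := fun x => Iff.rfl
  obtain ⟨m', rfl⟩ : ∃ m', m = m' + 2 := ⟨m - 2, by omega⟩
  have hAmul : ∀ x ∈ A, ∀ y ∈ A, x * y ∈ A := by
    intro x hx y hy
    have h1 := upc _ (m' + 1) 1 le_rfl (down _ _ (m' + 1) le_rfl hx hy)
    rw [hA]
    convert h1 using 2
    field_simp
  have hκ : c ^ (m' + 2 + 1) * d ∈ A := by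
    have h1 := upc _ 2 m' (by omega) hc2
    rw [hA, add_comm m' 2]
    convert h1 using 2
    field_simp
    ring
  have hκ0 : c ^ (m' + 2 + 1) * d ≠ 0 := mul_ne_zero (pow_ne_zero _ hc) hd
  have h1A : (1 : F) ∈ A := one_mem_of_mul_closed A hAmul hκ hκ0
  let K : Subring F :=
    { A with
      mul_mem' := fun {x y} hx hy => hAmul x hx y hy
      one_mem' := h1A }
  have downc : ∀ (s : F) k i, i + k ≤ m' + 2 → HasTv H (s • a (i + k)) (f 0) →
      HasTv H ((s / c ^ k) • a i) (f 0) := by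
    intro s k
    induction k generalizing s with
    | zero => intro i _ h; simpa using h
    | succ k ih =>
      intro i hi h
      have h1 := ih _ i (by omega) (down _ _ (i + k) (by omega) h h1A)
      convert h1 using 2
      field_simp
      ring
  have hA0 : ∀ x, x ∈ A ↔ HasTv H ((x / (c ^ (m' + 2 + 1) * d)) • a 0) (f 0) := by
    intro x
    rw [hA]
    constructor
    · intro h
      have := downc _ (m' + 2) 0 (by omega) (by rw [zero_add]; exact h)
      convert this using 2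
      field_simp
      ring
    · intro h
      have := upc _ 0 (m' + 2) (by omega) h
      rw [zero_add] at this
      convert this using 2
      field_simp
      ring
  have he : e / c ^ 2 ∈ A := by
    have h1 := up _ 0 2 (by omega) (by omega) ((hA0 1).1 h1A)
    have h2 := downc _ 2 0 (by omega) h1
    rw [hA0]
    convert h2 using 2
    rw [← hedef]
    field_simp
  have hKtop : K = ⊤ := hK K hκ he
  have all0 : ∀ s : F, HasTv H (s • a 0) (f 0) := by
    intro s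
    have : s * (c ^ (m' + 2 + 1) * d) ∈ K := hKtop ▸ Subring.mem_top _
    have h1 := (hA0 _).1 this
    rwa [mul_div_cancel_right₀ _ hκ0] at h1
  have all : ∀ (s : F) i, i ≤ m' + 2 → HasTv H (s • a i) (f 0) := by
    intro s i hi
    have := upc _ 0 i (by omega) (all0 (s / c ^ i))
    rwa [div_mul_cancel₀ _ (pow_ne_zero _ hc), zero_add] at this
  let S : Submodule F (ι → F) :=
    { carrier := {w | ∃ w1 w2, w = w1 + w2 ∧ (∀ s : F, HasTv H (s • w1) (f 0)) ∧
        ∀ s : F, HasTv H (s • w2) (f 2)}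
      zero_mem' := ⟨0, 0, by simp, by simpa using HasTv.zero_left _,
        by simpa using HasTv.zero_left _⟩
      add_mem' := by
        rintro _ _ ⟨w1, w2, rfl, h1, h2⟩ ⟨w1', w2', rfl, h1', h2'⟩
        refine ⟨w1 + w1', w2 + w2', by abel, fun s => ?_, fun s => ?_⟩
        · rw [smul_add]; exact (h1 s).add_left (h1' s)
        · rw [smul_add]; exact (h2 s).add_left (h2' s)
      smul_mem' := by
        rintro t _ ⟨w1, w2, rfl, h1, h2⟩
        refine ⟨t • w1, t • w2, smul_add _ _ _, fun s => ?_, fun s => ?_⟩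
        · rw [smul_smul]; exact h1 _
        · rw [smul_smul]; exact h2 _ }
  have hS : S = ⊤ := by
    refine hspan S fun k hk => ?_
    by_cases hk2 : k ≤ 2
    · exact ⟨a k, 0, by simp, fun s => all s k (by omega), by simpa using HasTv.zero_left _⟩
    · refine ⟨0, a k, by simp, by simpa using HasTv.zero_left _, fun s => ?_⟩
      have := (sh s 2 (k - 2) 0).1 (all s _ (by omega))
      rwa [show k - 2 + 2 = k by omega] at this
  have hax : HasAxis H (f 0) := by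
    intro w hw
    obtain ⟨w1, w2, rfl, h1, h2⟩ : w ∈ S := hS ▸ Submodule.mem_top
    have e1 : f 0 ⬝ᵥ w1 = 0 := by simpa using (h1 1).dot
    have e2 : f 0 ⬝ᵥ w2 = 0 := by simpa [e1] using hw
    have h3 := (h2 1).comm_left (all c⁻¹ 1 (by omega)) (by simpa using e2)
    rw [dotProduct_smul, zc 1, smul_eq_mul, inv_mul_cancel₀ hc, one_smul] at h3
    simpa using (h1 1).add_left h3
  exact eq_top_of_axisSub H (hcyc _ hax fun ψ hψ => HasAxis.conj hψ huH)

end Cfsg.Agent.RU
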